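import Cfsg.Agent.H865.L5.Base

/-!
# S5923 / S5924, B4 (helper559): the pointwise stabiliser of a regular set of characters mod 5 is a 5-group
-/

set_option autoImplicit false
set_option linter.unusedSectionVars false

namespace Cfsg.Agent.H559.L5

open CoxeterSystem Subgroup Cfsg Cfsg.Lie Cfsg.Lie.ChevalleyDatum
open Cfsg.Agent.ChevalleyStructure Cfsg.Agent.ChevalleyStructure.Elts Cfsg.Agent.ChevalleyStructure.CoxeterGeom
  Cfsg.Agent.ChevalleyStructure.CoxeterGeomTypes Cfsg.Agent.ChevalleyStructure.NPerm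
open Cfsg.Agent.Tits.Roots Cfsg.Agent.Tits.Core Cfsg.Agent.Nodes Cfsg.Agent.Nodes.SubComb Cfsg.Agent.Nodes.Reps
  Cfsg.Agent.Nodes.BNOf Cfsg.Agent.Nodes.RGDChev Cfsg.Agent.Nodes.Bruhat Cfsg.Agent.Nodes.Coroot
open Cfsg.Agent.KFacts.RgdField Cfsg.Agent.KFacts.RgdChevCoord Cfsg.Agent.BpExc.TorCent Cfsg.Agent.BpExc.TorChev
open Cfsg.Agent.GpExc.Field Cfsg.Agent.BpExc.Tow Cfsg.Agent.BpExc.TowChev Cfsg.Agent.BpExc.Fr
  Cfsg.Agent.BpExc.LangFr Cfsg.Agent.BpExc.FamField Cfsg.Agent.BpExc.FamInst Cfsg.Agent.H129.TorusChar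
  Cfsg.Agent.H795.LangT Cfsg.Agent.BpExc.FamExt Cfsg.Agent.BpExc.FamUntw Cfsg.Agent.H378.TorDual Cfsg.Agent.H378.TorChar
  Cfsg.Agent.H378.TorFin Cfsg.Agent.H378.RankOne Cfsg.Agent.H378.RootTor Cfsg.Agent.H865.EE Cfsg.Agent.H865.L5

attribute [local irreducible] w8

/-- B4 : the pointwise stabiliser of a regular subset is a 5-group -/
theorem five_of_reg {Φ : Set (Module.Dual (ZMod 5) (Fin 4 → ZMod 5))} (hr : ∀ a, Rt a → ∃ φ ∈ Φ, φ (PP a) ≠ 0)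
    {w : W8} (hw : ∀ φ ∈ Φ, ∀ x, φ (PP (act w x)) = φ (PP x)) : ∃ n : ℕ, w ^ 5 ^ n = 1 := by
  have hp : Nat.Prime 5 := by norm_num
  have hpos := orderOf_pos w
  obtain ⟨n, m, hm, ho⟩ := Nat.exists_eq_pow_mul_and_not_dvd hpos.ne' 5 (by norm_num)
  refine ⟨n, ?_⟩
  by_contra hv
  have hm0 : 0 < m := Nat.pos_of_ne_zero (by rintro rfl; exact hm (dvd_zero 5))
  have hl : (w ^ 5 ^ n) ^ m = 1 := by rw [← pow_mul, ← ho, pow_orderOf_eq_one]
  obtain ⟨a, ha, hsum⟩ := Cfsg.Agent.BpExc.Fix.exists_root_sum_eq_zero (cs := cs8) (h := tp8.isCartan) hv hm0 hl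
  obtain ⟨φ, hφ, hne⟩ := hr a ha
  -- the powers of `w`
  have hpow : ∀ k : ℕ, ∀ x, φ (PP (act (w ^ k) x)) = φ (PP x) := by
    intro k
    induction k with
    | zero => intro x; rw [pow_zero, act_one]
    | succ k ih => intro x; rw [pow_succ, act_mul, ih, hw φ hφ]
  apply hne
  have h1 : φ (PP (∑ i ∈ Finset.range m, act ((w ^ 5 ^ n) ^ i) a)) = (m : ZMod 5) * φ (PP a) := by
    rw [map_sum, map_sum, Finset.sum_congr rfl (fun i _ => by rw [← pow_mul, hpow] :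
      ∀ i ∈ Finset.range m, φ (PP (act ((w ^ 5 ^ n) ^ i) a)) = φ (PP a)), Finset.sum_const, Finset.card_range, nsmul_eq_mul]
  have h2 : (m : ZMod 5) * φ (PP a) = 0 := by
    rw [← h1]
    have h3 : ∑ i ∈ Finset.range m, act ((w ^ 5 ^ n) ^ i) a = 0 := hsum
    rw [h3, map_zero, map_zero]
  have hm5 : (m : ZMod 5) ≠ 0 := by
    rw [Ne, ZMod.natCast_eq_zero_iff]
    exact hm
  exact (mul_eq_zero.1 h2).resolve_left hm5

end Cfsg.Agent.H559.L5
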